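import Cfsg.Agent.TwoSubgroup16.Engel
import Cfsg.Agent.SectionFunctors.Transfer

/-!
For odd `p` the normalizers of the nontrivial characteristic subgroups of a Sylow `p`-subgroup control transfer.
-/

set_option autoImplicit false

open Cfsg
open CfsgLib.ConjFunctor
open CfsgLib.SectionFunctors
open scoped commutatorElement

namespace CfsgLib.TwoSubgroup16

universe u

/-- All isomorphism invariant `p`-group functors. -/
def allFunctors (p : ℕ) : Set (∀ (Q : Type u) [Group Q], Subgroup Q) := {W | IsCharPFunctor.{u} p W}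

open _root_.Classical in
/-- A functor with a given value on one group. -/
noncomputable def functorAt {P : Type u} [Group P] (K : Subgroup P) : ∀ (Q : Type u) [Group Q], Subgroup Q :=
  fun Q _ => if h : Nonempty (P ≃* Q) then K.map h.some.toMonoidHom else ⊤

theorem isCharPFunctor_functorAt {p : ℕ} {P : Type u} [Group P] {K : Subgroup P}
    (hK : K.Characteristic) (hne : K ≠ ⊥) : IsCharPFunctor.{u} p (functorAt K) := by
  constructor
  · intro Q _ _ _ _
    rw [functorAt]
    split
    · rw [Ne, Subgroup.map_eq_bot_iff_of_injective _ (MulEquiv.injective _)]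
      exact hne
    · exact top_ne_bot
  · intro Q R _ _ _ _ φ
    rw [functorAt, functorAt]
    by_cases h : Nonempty (P ≃* Q)
    · have h' : Nonempty (P ≃* R) := ⟨h.some.trans φ⟩
      rw [dif_pos h, dif_pos h', Subgroup.map_map]
      set σ : P ≃* P := (h.some.trans φ).trans h'.some.symm
      conv_rhs => rw [← Subgroup.characteristic_iff_map_eq.mp hK σ]
      rw [Subgroup.map_map]
      congr 1
      ext x
      simp [σ]
    · have h' : ¬ Nonempty (P ≃* R) := fun ⟨e⟩ => h ⟨e.trans φ.symm⟩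
      rw [dif_neg h, dif_neg h', Subgroup.map_top_of_surjective _ φ.surjective]

theorem functorAt_self {P : Type u} [Group P] {K : Subgroup P} (hK : K.Characteristic) :
    functorAt K P = K := by
  rw [functorAt, dif_pos ⟨MulEquiv.refl P⟩]
  exact Subgroup.characteristic_iff_map_eq.mp hK _

variable {p : ℕ} [Fact p.Prime]

/-- The step for a constrained group, smaller groups being controlled. -/
theorem transferLe_step (hp : p ≠ 2) {X : Type u} [Group X] [Finite X]
    (hc : Subgroup.centralizer (pCore p X : Set X) ≤ pCore p X)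
    (hsmall : ∀ (H : Type u) [Group H] [Finite H], Nat.card H < Nat.card X → ∀ S : Sylow p H,
      TransferLe ((fun W => inducedFunctor (G := H) W) '' allFunctors p) ⊤ (S : Subgroup H))
    (T : Sylow p X) :
    TransferLe ((fun W => inducedFunctor (G := X) W) '' allFunctors p) ⊤ (T : Subgroup X) := by
  set 𝓦 := allFunctors.{u} p with h𝓦def
  have h𝓦 : ∀ W ∈ 𝓦, IsCharPFunctor.{u} p W := fun W hW => hW
  unfold TransferLe
  set F := ⨆ N ∈ functorNormalizers ((fun W => inducedFunctor (G := X) W) '' 𝓦) ⊤ (T : Subgroup X),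
    (T : Subgroup X) ⊓ ⁅N, N⁆ with hF
  have hmemF : ∀ W ∈ 𝓦, (T : Subgroup X) ⊓
      ⁅Subgroup.normalizer ((inducedFunctor (G := X) W (T : Subgroup X) : Subgroup X) : Set X),
        Subgroup.normalizer ((inducedFunctor (G := X) W (T : Subgroup X) : Subgroup X) : Set X)⁆ ≤ F := fun W hW =>
    le_biSup (fun N => (T : Subgroup X) ⊓ ⁅N, N⁆) ⟨_, ⟨W, hW, rfl⟩, top_inf_eq _⟩
  have hFT : F ≤ (T : Subgroup X) := iSup₂_le fun _ _ => inf_le_left
  have hFX : F ≤ ⁅(⊤ : Subgroup X), ⊤⁆ :=
    iSup₂_le fun _ _ => inf_le_right.trans (Subgroup.commutator_mono le_top le_top)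
  -- a normal characteristic subgroup
  by_cases hchar : ∃ K : Subgroup X, CharIn K (T : Subgroup X) ∧ K ≠ ⊥ ∧ K.Normal
  · obtain ⟨K, hKT, hK, hKn⟩ := hchar
    set K' := K.subgroupOf (T : Subgroup X)
    have hKc : K'.Characteristic := Subgroup.characteristic_iff_map_le.mpr fun σ => by
      rintro _ ⟨x, hx, rfl⟩
      exact hKT.2 σ x hx
    have hK' : K' ≠ ⊥ := fun e => hK (by
      rw [← Subgroup.map_subgroupOf_eq_of_le hKT.1]
      change K'.map _ = _
      rw [e, Subgroup.map_bot])
    have h1 := hmemF (functorAt K') (isCharPFunctor_functorAt hKc hK')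
    rw [show inducedFunctor (G := X) (functorAt K') (T : Subgroup X) = K by
      rw [inducedFunctor, functorAt_self hKc, Subgroup.map_subgroupOf_eq_of_le hKT.1],
      Subgroup.normalizer_eq_top_iff.mpr hKn] at h1
    exact h1
  push Not at hchar
  by_cases hT : (T : Subgroup X) = ⊥
  · exact inf_le_left.trans (hT ▸ bot_le)
  have hnT : ¬ (T : Subgroup X).Normal := hchar _ (charIn_refl _) hT
  have hover : ∀ H : Subgroup X, (T : Subgroup X) ≤ H → H ≠ ⊤ → (T : Subgroup X) ⊓ ⁅H, H⁆ ≤ F := by
    intro H hTH hH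
    have hcard : Nat.card ↥H < Nat.card X :=
      lt_of_le_of_ne (Subgroup.card_le_card_group H) fun he => hH (Subgroup.eq_top_of_card_eq H he)
    have hT' : IsPGroup p ↥((T : Subgroup X).subgroupOf H) := T.2.comap_subtype
    have hidx : ¬ p ∣ ((T : Subgroup X).subgroupOf H).index := fun h =>
      T.not_dvd_index (h.trans (Subgroup.relIndex_dvd_index_of_le hTH))
    have h1 := transferLe_map h𝓦 H.subtype H.subtype_injective hT' (hsmall ↥H hcard (hT'.toSylow hidx))
    change TransferLe _ H.subtype.range (((T : Subgroup X).subgroupOf H).map H.subtype) at h1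
    rw [Subgroup.range_subtype, Subgroup.subgroupOf_map_subtype, inf_eq_left.mpr hTH] at h1
    refine h1.trans (iSup₂_le ?_)
    rintro _ ⟨_, ⟨W, hW, rfl⟩, rfl⟩
    exact le_trans (inf_le_inf_left _ (Subgroup.commutator_mono inf_le_right inf_le_right)) (hmemF W hW)
  have hTtop : (T : Subgroup X) ≠ ⊤ := fun e => hnT (e ▸ inferInstance)
  have hT' : ⁅(T : Subgroup X), (T : Subgroup X)⁆ ≤ F :=
    (le_inf (Subgroup.commutator_le_self _) le_rfl).trans (hover _ le_rfl hTtop)
  set Q := pCore p X with hQ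
  haveI hQn : Q.Normal := Constrained.instNormalPCore p
  have hQT : Q ≤ (T : Subgroup X) := pCore_le_sylow T
  have hQ1 : Q ≠ ⊥ := by
    intro h0
    have htop : (⊤ : Subgroup X) ≤ ⊥ := le_trans (fun x _ => Subgroup.mem_centralizer_iff.mpr fun y hy => by
      rw [h0] at hy
      rw [Subgroup.mem_bot.mp hy, one_mul, mul_one]) (hc.trans h0.le)
    exact hT (le_bot_iff.mp (le_top.trans htop))
  -- the part inside the core
  have hcoreF : Q ⊓ ⁅(⊤ : Subgroup X), ⊤⁆ ≤ F := by
    intro q hq
    set F₁ := F.subgroupOf (T : Subgroup X) with hF₁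
    haveI : ((F₁.map Abelianization.of) : Subgroup (Abelianization ↥(T : Subgroup X))).Normal :=
      Subgroup.normal_of_comm _
    let φ : ↥(T : Subgroup X) →* Abelianization ↥(T : Subgroup X) ⧸ F₁.map Abelianization.of :=
      (QuotientGroup.mk' _).comp Abelianization.of
    have hφF : ∀ z : ↥(T : Subgroup X), (z : X) ∈ F → φ z = 1 := fun z hz =>
      (QuotientGroup.eq_one_iff _).mpr ⟨z, hz, rfl⟩
    let φQ := φ.comp (Subgroup.inclusion hQT)
    let D : Subgroup X :=
      { carrier := {x | ∀ q : ↥Q, φQ (MulAut.conjNormal x q) = φQ q}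
        mul_mem' := fun {a b} ha hb q => by rw [map_mul, MulAut.mul_apply, ha, hb]
        one_mem' := fun q => by simp
        inv_mem' := fun {a} ha q => by
          have := ha (MulAut.conjNormal a⁻¹ q)
          rw [← MulAut.mul_apply, ← map_mul, mul_inv_cancel, map_one, MulAut.one_apply] at this
          exact this.symm }
    have hleD : ∀ H : Subgroup X, (T : Subgroup X) ≤ H → H ≠ ⊤ → H ≤ D := by
      intro H hTH hH x hx z
      have hmem : x * (z : X) * x⁻¹ * (z : X)⁻¹ ∈ (T : Subgroup X) :=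
        mul_mem (hQT (hQn.conj_mem _ z.2 x)) (inv_mem (hQT z.2))
      have h1 : x * (z : X) * x⁻¹ * (z : X)⁻¹ ∈ F := hover H hTH hH
        ⟨hmem, by rw [← commutatorElement_def]; exact Subgroup.commutator_mem_commutator hx (hTH (hQT z.2))⟩
      have e : Subgroup.inclusion hQT (MulAut.conjNormal x z) = ⟨_, hmem⟩ * Subgroup.inclusion hQT z :=
        Subtype.ext (by simp)
      show φ (Subgroup.inclusion hQT (MulAut.conjNormal x z)) = φ (Subgroup.inclusion hQT z)
      rw [e, map_mul, hφF ⟨_, hmem⟩ h1, one_mul]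
    have hD : D = ⊤ := by
      by_contra hne
      have hcore : Core p T D :=
        ⟨hp, hc, hne, hleD _ le_rfl hTtop, hleD, fun K hK hK1 => hchar K hK hK1⟩
      exact hne (top_le_iff.mp fun x _ z => hcore.invariant_all φQ (fun m hm => hm) x z)
    haveI : Fintype (X ⧸ (T : Subgroup X)) := Fintype.ofFinite _
    have hconst : ∀ x : X, ∀ hx : x⁻¹ * q * x ∈ (T : Subgroup X), φ ⟨x⁻¹ * q * x, hx⟩ = φ ⟨q, hQT hq.1⟩ := by
      intro x hx
      have h1 : φQ (MulAut.conjNormal x⁻¹ ⟨q, hq.1⟩) = φQ ⟨q, hq.1⟩ := (hD.ge (Subgroup.mem_top x⁻¹)) _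
      refine Eq.trans ?_ h1
      exact congrArg φ (Subtype.ext (by simp))
    have htr : MonoidHom.transfer φ q = φ ⟨q, hQT hq.1⟩ ^ (T : Subgroup X).index := by
      rw [MonoidHom.transfer_def φ default q, Subgroup.leftTransversals.diff, Subgroup.index_eq_card,
        Nat.card_eq_fintype_card, ← Finset.card_univ, ← Finset.prod_const]
      refine Finset.prod_congr (by ext; simp) fun x _ => ?_
      set R : (T : Subgroup X).LeftTransversal := default with hR
      have hfix : q⁻¹ • x = x := by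
        induction x using QuotientGroup.induction_on with
        | H g =>
          apply Quotient.sound'
          rw [QuotientGroup.leftRel_apply]
          refine hQT ?_
          have h1 := hQn.conj_mem q hq.1 g⁻¹
          simpa [mul_assoc] using h1
      have hval : ((q • R).2.leftQuotientEquiv x : X) = q * (R.2.leftQuotientEquiv x : X) := by
        rw [Subgroup.smul_apply_eq_smul_apply_inv_smul, hfix]; rfl
      have hmem : (R.2.leftQuotientEquiv x : X)⁻¹ * q * (R.2.leftQuotientEquiv x : X) ∈ (T : Subgroup X) := by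
        refine hQT ?_
        have h1 := hQn.conj_mem q hq.1 (R.2.leftQuotientEquiv x : X)⁻¹
        simpa [mul_assoc] using h1
      rw [← hconst _ hmem]
      congr 1
      apply Subtype.ext
      show _⁻¹ * _ = _
      rw [hval]
      exact (mul_assoc _ _ _).symm
    have h1 : MonoidHom.transfer φ q = 1 := by
      have h := Abelianization.commutator_subset_ker (MonoidHom.transfer φ)
      rw [commutator_def] at h
      exact h hq.2
    rw [htr] at h1
    obtain ⟨m, hm⟩ := T.2 ⟨q, hQT hq.1⟩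
    have h2 : φ ⟨q, hQT hq.1⟩ = 1 := orderOf_eq_one_iff.mp (Nat.eq_one_of_dvd_coprimes
      ((((Fact.out : p.Prime).coprime_iff_not_dvd).mpr T.not_dvd_index).symm.pow_right m)
      (orderOf_dvd_of_pow_eq_one h1) (orderOf_dvd_of_pow_eq_one (by rw [← map_pow, hm, map_one])))
    obtain ⟨y, hy, hye⟩ : Abelianization.of (⟨q, hQT hq.1⟩ : ↥(T : Subgroup X)) ∈ F₁.map Abelianization.of :=
      (QuotientGroup.eq_one_iff _).mp h2
    have h4 : y⁻¹ * ⟨q, hQT hq.1⟩ ∈ commutator ↥(T : Subgroup X) := by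
      rw [← Abelianization.ker_of, MonoidHom.mem_ker, map_mul, map_inv, hye, inv_mul_cancel]
    have h5 : (y⁻¹ * ⟨q, hQT hq.1⟩ : ↥(T : Subgroup X)).1 ∈ F := by
      apply hT'
      have h6 := Subgroup.mem_map_of_mem (T : Subgroup X).subtype h4
      rwa [commutator_def, Subgroup.map_commutator, ← MonoidHom.range_eq_map, Subgroup.range_subtype] at h6
    have h7 := F.mul_mem (show (y : X) ∈ F from hy) h5
    simpa using h7
  -- the quotient
  set f := QuotientGroup.mk' Q with hf
  have hfs : Function.Surjective f := QuotientGroup.mk'_surjective Q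
  have hker : f.ker = Q := QuotientGroup.ker_mk' Q
  have hcard : Nat.card (X ⧸ Q) < Nat.card X := by
    have h1 := Subgroup.card_eq_card_quotient_mul_card_subgroup Q
    have h2 : 1 < Nat.card Q := by
      rw [Finite.one_lt_card_iff_nontrivial, Subgroup.nontrivial_iff_ne_bot]; exact hQ1
    have h3 : 0 < Nat.card (X ⧸ Q) := Nat.card_pos
    rw [h1]
    exact lt_mul_of_one_lt_right h3 h2
  set Tb := T.mapSurjective (f := f) hfs with hTb
  have hquot := hsmall (X ⧸ Q) hcard Tb
  have hTcomap : (Tb : Subgroup (X ⧸ Q)).comap f = (T : Subgroup X) := by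
    rw [hTb, Sylow.coe_mapSurjective, Subgroup.comap_map_eq, hker, sup_eq_left.mpr hQT]
  have hTbne : (Tb : Subgroup (X ⧸ Q)) ≠ ⊥ := by
    intro h
    refine hnT ?_
    rw [show (T : Subgroup X) = Q from by rw [← hTcomap, h, MonoidHom.comap_bot, hker]]
    exact hQn
  have hcore : ∀ W ∈ 𝓦, (Tb : Subgroup (X ⧸ Q)) ⊓
      ⁅Subgroup.normalizer ((inducedFunctor (G := X ⧸ Q) W (Tb : Subgroup (X ⧸ Q)) : Subgroup (X ⧸ Q)) : Set (X ⧸ Q)),
        Subgroup.normalizer ((inducedFunctor (G := X ⧸ Q) W (Tb : Subgroup (X ⧸ Q)) : Subgroup (X ⧸ Q)) : Set (X ⧸ Q))⁆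
      ≤ F.map f := by
    intro W hW
    set U := (inducedFunctor (G := X ⧸ Q) W (Tb : Subgroup (X ⧸ Q))).comap f with hU
    have hUT : U ≤ (T : Subgroup X) := by
      rw [← hTcomap]; exact Subgroup.comap_mono (inducedFunctor_le _)
    have hUN : (Subgroup.normalizer ((inducedFunctor (G := X ⧸ Q) W (Tb : Subgroup (X ⧸ Q)) : Subgroup (X ⧸ Q)) : Set (X ⧸ Q))).comap f =
        Subgroup.normalizer (U : Set X) := by
      rw [hU, Subgroup.comap_normalizer_eq_of_surjective _ hfs]
    have hTU : (T : Subgroup X) ≤ Subgroup.normalizer (U : Set X) := by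
      rw [← hUN, ← hTcomap]
      exact Subgroup.comap_mono (le_normalizer_inducedFunctor (h𝓦 W hW) Tb.2)
    have hUtop : Subgroup.normalizer (U : Set X) ≠ ⊤ := by
      intro htop
      have h1 : U ≤ Q := Constrained.le_pCore (Subgroup.normalizer_eq_top_iff.mp htop) (T.2.to_le hUT)
      apply inducedFunctor_ne_bot (h𝓦 W hW) Tb.2 hTbne
      rw [← Subgroup.map_comap_eq_self_of_surjective hfs (inducedFunctor (G := X ⧸ Q) W (Tb : Subgroup (X ⧸ Q))),
        Subgroup.map_eq_bot_iff, hker]
      exact h1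
    rw [← Subgroup.map_comap_eq_self_of_surjective hfs
      (Subgroup.normalizer ((inducedFunctor (G := X ⧸ Q) W (Tb : Subgroup (X ⧸ Q)) : Subgroup (X ⧸ Q)) : Set (X ⧸ Q))),
      hUN, ← Subgroup.map_commutator]
    rintro _ ⟨hsT, x, hx, rfl⟩
    refine ⟨x, hover _ hTU hUtop ⟨?_, hx⟩, rfl⟩
    rw [← hTcomap]
    exact hsT
  intro x hx
  have h1 : f x ∈ (Tb : Subgroup (X ⧸ Q)) ⊓ ⁅(⊤ : Subgroup (X ⧸ Q)), ⊤⁆ := by
    refine ⟨?_, ?_⟩
    · show x ∈ (Tb : Subgroup (X ⧸ Q)).comap f
      rw [hTcomap]; exact hx.1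
    · rw [← Subgroup.map_top_of_surjective f hfs, ← Subgroup.map_commutator]
      exact ⟨x, hx.2, rfl⟩
  have h2 : f x ∈ F.map f := by
    refine (hquot.trans (iSup₂_le ?_) : _ ≤ F.map f) h1
    rintro _ ⟨_, ⟨W, hW, rfl⟩, rfl⟩
    exact le_trans (inf_le_inf_left _ (Subgroup.commutator_mono inf_le_right inf_le_right)) (hcore W hW)
  obtain ⟨y, hy, hyx⟩ := h2
  have h3 : y⁻¹ * x ∈ Q := by
    rw [← hker, MonoidHom.mem_ker, map_mul, map_inv, hyx, inv_mul_cancel]
  have h4 := F.mul_mem hy (hcoreF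
    ⟨h3, (⁅(⊤ : Subgroup X), ⊤⁆ : Subgroup X).mul_mem ((⁅(⊤ : Subgroup X), ⊤⁆ : Subgroup X).inv_mem (hFX hy)) hx.2⟩)
  simpa using h4

theorem transferLe_allFunctors (hp : p ≠ 2) :
    ∀ (n : ℕ) (G : Type u) [Group G] [Finite G], Nat.card G ≤ n → ∀ S : Sylow p G,
      TransferLe ((fun W => inducedFunctor (G := G) W) '' allFunctors p) ⊤ (S : Subgroup G) := by
  intro n
  induction n using Nat.strong_induction_on with
  | _ n IH =>
  intro G _ _ hn S
  refine transferLe_top_of_constrained _ (fun W hW => hW) _ G rfl (fun K R _ hc T => ?_) S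
  refine transferLe_step hp hc (fun H _ _ hlt S' => IH (Nat.card H) (lt_of_lt_of_le hlt ?_) H le_rfl S') T
  exact ((Nat.le_of_dvd Nat.card_pos (Subgroup.card_quotient_dvd_card _)).trans (Subgroup.card_le_card_group K)).trans hn

end CfsgLib.TwoSubgroup16
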