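import Cfsg.Agent.TwoSubgroup16.Baumann
import Cfsg.Agent.TwoSubgroup16.Quadratic
import Cfsg.Agent.PushingUp44.PSLSylow
import Cfsg.Agent.S2764

/-!
One block of `L`: a minimal subgroup over `B(T)` outside `M` and what pushing up says about it.
-/

set_option autoImplicit false

open Cfsg
open CfsgLib.ConjFunctor (conjOf conjOf_conjOf conjOf_one card_conjOf conjOf_mono conj_mem_conjOf mem_normalizer_iff_conjOf conjOf_le_iff mem_conjOf SylowIn exists_conj_le_of_sylowIn)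
open CfsgLib.PushingUp44 (cj)
open scoped MatrixGroups commutatorElement

namespace CfsgLib.TwoSubgroup16

universe u

variable {X : Type u} [Group X]

theorem conj_mem_centralizer {N : Subgroup X} {c g : X} (hc : c ∈ Subgroup.centralizer (N : Set X))
    (hg : g ∈ Subgroup.normalizer (N : Set X)) : g * c * g⁻¹ ∈ Subgroup.centralizer (N : Set X) := by
  refine Subgroup.mem_centralizer_iff.mpr fun x hx => ?_
  have hx' : g⁻¹ * x * g ∈ N := (Subgroup.mem_normalizer_iff''.mp hg x).mp hx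
  have h1 := Subgroup.mem_centralizer_iff.mp hc _ hx'
  calc x * (g * c * g⁻¹) = g * (g⁻¹ * x * g * c) * g⁻¹ := by group
    _ = g * (c * (g⁻¹ * x * g)) * g⁻¹ := by rw [h1]
    _ = _ := by group

theorem SameOn.inv_mul_mem {N : Subgroup X} {a u : X} (h : SameOn N a u) :
    u⁻¹ * a ∈ Subgroup.centralizer (N : Set X) := by
  refine Subgroup.mem_centralizer_iff.mpr fun x hx => ?_
  have h1 := h x hx
  calc x * (u⁻¹ * a) = u⁻¹ * (u * x * u⁻¹) * a := by group
    _ = u⁻¹ * (a * x * a⁻¹) * a := by rw [h1]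
    _ = _ := by group

/-- In `SL₂` in odd characteristic, `p`-elements congruent modulo the center are equal. -/
theorem eq_of_mk_eq {F : Type*} [Field F] {p : ℕ} [Fact p.Prime] (hp : p ≠ 2) {a b : SL(2, F)} {k l : ℕ}
    (ha : a ^ p ^ k = 1) (hb : b ^ p ^ l = 1)
    (h : (QuotientGroup.mk a : SL(2, F) ⧸ Subgroup.center SL(2, F)) = QuotientGroup.mk b) : a = b := by
  rw [QuotientGroup.eq] at h
  set z := a⁻¹ * b with hz
  have hcom : Commute a z := (Subgroup.mem_center_iff.mp h a)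
  have h1 : z ^ p ^ (k + l) = 1 := by
    have e : (a * z) ^ p ^ (k + l) = 1 := by
      rw [hz, mul_inv_cancel_left, pow_add, mul_comm, pow_mul, hb, one_pow]
    rwa [hcom.mul_pow, pow_add, pow_mul a, ha, one_pow, one_mul, ← pow_add] at e
  have h2 : z ^ 2 = 1 := by
    obtain ⟨r, hr, hrz⟩ := Matrix.SpecialLinearGroup.mem_center_iff.mp h
    refine Subtype.ext ?_
    rw [Matrix.SpecialLinearGroup.coe_pow, ← hrz, ← map_pow]
    rw [Fintype.card_fin] at hr
    rw [hr, map_one]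
    rfl
  have hz1 : z = 1 := orderOf_eq_one_iff.mp (Nat.eq_one_of_dvd_coprimes
    (((Nat.coprime_primes (Fact.out : p.Prime) Nat.prime_two).mpr hp).pow_left (k + l))
    (orderOf_dvd_of_pow_eq_one h1) (orderOf_dvd_of_pow_eq_one h2))
  exact inv_mul_eq_one.mp (hz ▸ hz1)

namespace Blocks

variable {p : ℕ} {V T : Subgroup X} {r : ℕ} {E N : Fin r → Subgroup X} (D : Blocks p V T E N)

include D

/-- An element of the product of the `E i` centralizing every block centralizes `V`. -/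
theorem mem_centralizer_V {x : X} (hx : x ∈ ⨆ i, E i) (h : ∀ i, x ∈ Subgroup.centralizer (N i : Set X)) :
    x ∈ Subgroup.centralizer (V : Set X) := by
  refine Subgroup.mem_centralizer_iff.mpr fun v hv => ?_
  refine Subgroup.mem_centralizer_singleton_iff.mp ((sup_le ?_ (iSup_le fun i => ?_) :
    (V ⊓ Subgroup.centralizer ((⨆ i, E i : Subgroup X) : Set X)) ⊔ (⨆ i, N i) ≤
      Subgroup.centralizer ({x} : Set X)) (D.gen.ge hv))
  · rintro w ⟨-, hw⟩
    rw [Subgroup.mem_centralizer_singleton_iff]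
    exact (Subgroup.mem_centralizer_iff.mp hw x hx).symm
  · intro w hw
    rw [Subgroup.mem_centralizer_singleton_iff]
    exact Subgroup.mem_centralizer_iff.mp (h i) w hw

theorem exists_sameOn (i : Fin r) {g : X} (hg : g ∈ ⨆ j, E j) : ∃ e ∈ E i, SameOn (N i) g e := by
  refine Subgroup.iSup_induction E (C := fun g => ∃ e ∈ E i, SameOn (N i) g e) hg
    (fun j g hg => ?_) ⟨1, one_mem _, fun x _ => rfl⟩ ?_
  · by_cases h : j = i
    · exact ⟨g, h ▸ hg, fun x _ => rfl⟩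
    · refine ⟨1, one_mem _, fun x hx => ?_⟩
      rw [← Subgroup.mem_centralizer_iff.mp (D.cross i j (Ne.symm h) hg) x hx]
      group
  · rintro g g' ⟨e, he, hge⟩ ⟨e', he', hge'⟩
    refine ⟨e * e', mul_mem he he', fun x hx => ?_⟩
    have h1 : e' * x * e'⁻¹ ∈ N i := (Subgroup.mem_normalizer_iff.mp (D.E_norm i he') x).mp hx
    calc g * g' * x * (g * g')⁻¹ = g * (g' * x * g'⁻¹) * g⁻¹ := by group
      _ = g * (e' * x * e'⁻¹) * g⁻¹ := by rw [hge' x hx]
      _ = e * (e' * x * e'⁻¹) * e⁻¹ := hge _ h1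
      _ = _ := by group

variable [Finite X] [Fact p.Prime]

theorem UU_le_normalizer (i : Fin r) : UU T E ≤ Subgroup.normalizer (E i : Set X) := by
  refine iSup_le fun j u hu => ?_
  exact (D.hyp i).normal u (Subgroup.mem_inf.mp hu).1
    (D.iSup_E_le_normalizer i (le_iSup E j (Subgroup.mem_inf.mp hu).2))

end Blocks

variable [Finite X] {p : ℕ} [Fact p.Prime] {T : Sylow p X} {M : Subgroup X}
  {r : ℕ} {E N : Fin r → Subgroup X}

namespace Core

variable (h : Core p T M) (D : Blocks p (vMod p (T : Subgroup X)) (T : Subgroup X) E N)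

include h D

theorem normalizer_UU_sup_le :
    Subgroup.normalizer ((UU (T : Subgroup X) E ⊔ Subgroup.centralizer (vMod p (T : Subgroup X) : Set X) :
      Subgroup X) : Set X) ≤ M := by
  haveI := D.iSup_normal.1
  set C := Subgroup.centralizer (vMod p (T : Subgroup X) : Set X) with hC
  haveI hCn : C.Normal := inferInstance
  refine h.uniq _ (fun t ht => mem_normalizer_iff_conjOf.mpr (Subgroup.eq_of_le_of_card_ge ?_ (card_conjOf _ _).ge))
    fun htop => h.thompson_not_le' D ?_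
  · show Subgroup.map _ (UU (T : Subgroup X) E ⊔ C) ≤ _
    rw [Subgroup.map_sup]
    refine sup_le_sup (conjOf_le_iff.mpr fun x hx => ?_) (conjOf_le_iff.mpr fun x hx => hCn.conj_mem x hx t)
    obtain ⟨hxT, hxE⟩ := (h.mem_UU_iff D).mp hx
    exact (h.mem_UU_iff D).mpr ⟨mul_mem (mul_mem ht hxT) (inv_mem ht), D.iSup_normal.1.conj_mem x hxE t⟩
  · haveI := Subgroup.normalizer_eq_top_iff.mp htop
    exact le_trans (le_inf D.UU_le_T le_sup_left)
      (h.inf_le_pCore (H := UU (T : Subgroup X) E ⊔ C) (sup_le (D.UU_le_T.trans h.T_le) h.centralizer_vMod_le))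

/-- An element of `E i · U` normalizing `T ∩ E i` on the block lies in `M`. -/
theorem mem_M_of_normalizes {i : Fin r} {g : X} (hg : g ∈ E i ⊔ UU (T : Subgroup X) E)
    (hnorm : ∀ x ∈ (T : Subgroup X) ⊓ E i, ∃ u ∈ (T : Subgroup X) ⊓ E i, SameOn (N i) (g * x * g⁻¹) u) :
    g ∈ M := by
  set C := Subgroup.centralizer (vMod p (T : Subgroup X) : Set X) with hC
  haveI hCn : C.Normal := inferInstance
  rw [← SetLike.mem_coe, Subgroup.coe_mul_of_right_le_normalizer_left _ _ (D.UU_le_normalizer i)] at hg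
  obtain ⟨e, he, u, hu, rfl⟩ := hg
  refine mul_mem (h.normalizer_UU_sup_le D (mem_normalizer_iff_conjOf.mpr
    (Subgroup.eq_of_le_of_card_ge ?_ (card_conjOf _ _).ge))) (h.T_le (D.UU_le_T hu))
  show Subgroup.map _ (UU (T : Subgroup X) E ⊔ C) ≤ _
  rw [Subgroup.map_sup]
  refine sup_le ?_ ((conjOf_le_iff.mpr fun x hx => hCn.conj_mem x hx e).trans le_sup_right)
  rw [UU, Subgroup.map_iSup]
  refine iSup_le fun j => conjOf_le_iff.mpr fun x hx => ?_
  obtain ⟨hxT, hxE⟩ := Subgroup.mem_inf.mp hx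
  have heS : e ∈ ⨆ k, E k := le_iSup E i he
  have hxS : x ∈ ⨆ k, E k := le_iSup E j hxE
  have hexS : e * x * e⁻¹ ∈ ⨆ k, E k := mul_mem (mul_mem heS hxS) (inv_mem heS)
  by_cases hji : j = i
  · subst hji
    have huN := D.UU_le_normalizer j hu
    have hx' : u⁻¹ * x * u ∈ (T : Subgroup X) ⊓ E j := Subgroup.mem_inf.mpr
      ⟨mul_mem (mul_mem (inv_mem (D.UU_le_T hu)) hxT) (D.UU_le_T hu),
        (Subgroup.mem_normalizer_iff''.mp huN x).mp hxE⟩
    obtain ⟨u', hu', hsame⟩ := hnorm _ hx'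
    rw [show e * u * (u⁻¹ * x * u) * (e * u)⁻¹ = e * x * e⁻¹ by group] at hsame
    obtain ⟨hu'T, hu'E⟩ := Subgroup.mem_inf.mp hu'
    have h1 : u'⁻¹ * (e * x * e⁻¹) ∈ C := by
      refine D.mem_centralizer_V (mul_mem (inv_mem (le_iSup E j hu'E)) hexS) fun l => ?_
      by_cases hl : l = j
      · exact hl ▸ hsame.inv_mul_mem
      · exact mul_mem (inv_mem (D.cross l j hl hu'E))
          (D.cross l j hl (mul_mem (mul_mem he hxE) (inv_mem he)))
    have h2 := mul_mem (Subgroup.mem_sup_left (T := C) (le_iSup (fun k => (T : Subgroup X) ⊓ E k) j hu'))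
      (Subgroup.mem_sup_right (S := UU (T : Subgroup X) E) h1)
    rwa [mul_inv_cancel_left] at h2
  · have h1 : e * x * e⁻¹ * x⁻¹ ∈ C := by
      refine D.mem_centralizer_V (mul_mem hexS (inv_mem hxS)) fun l => ?_
      by_cases hl : l = i
      · subst hl
        have hxc := D.cross l j (Ne.symm hji) hxE
        exact mul_mem (conj_mem_centralizer hxc (D.E_norm l he)) (inv_mem hxc)
      · have hec := D.cross l i hl he
        have h2 := mul_mem hec (conj_mem_centralizer (inv_mem hec) (D.iSup_E_le_normalizer l hxS))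
        simpa [mul_assoc] using h2
    have h2 := mul_mem (Subgroup.mem_sup_right (S := UU (T : Subgroup X) E) h1)
      (Subgroup.mem_sup_left (T := C) (le_iSup (fun k => (T : Subgroup X) ⊓ E k) j hx))
    rwa [inv_mul_cancel_right] at h2

/-- A minimal subgroup above `B(T)` outside `M` in one block of `L`. -/
theorem exists_pushing :
    ∃ Y : Subgroup X, baumannSubgroupOf p (T : Subgroup X) ≤ Y ∧ Y ≤ lMod p (T : Subgroup X) ∧ ¬ Y ≤ M ∧
      ¬ p ∣ (baumannSubgroupOf p (T : Subgroup X) ⊔ pCore p X).relIndex (Y ⊔ pCore p X) ∧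
      (∀ g ∈ Y ⊔ pCore p X, g ∉ M → ∃ y ∈ baumannSubgroupOf p (T : Subgroup X), g⁻¹ * y * g ∉ M) ∧
      ∀ U W : Subgroup ↥Y, IsChiefFactor U W → U ≤ pCore p ↥Y → ∀ y : ↥Y, (y : X) ∈ (T : Subgroup X) →
        ∀ u ∈ U, ∀ a b : ℕ, ⁅⁅u, y ^ a⁆, y ^ b⁆ ∈ W := by
  classical
  haveI := CfsgLib.ConjFunctor.pCore_normal (G := X) p
  set i₀ : Fin r := ⟨0, D.pos⟩
  set B := baumannSubgroupOf p (T : Subgroup X) with hB
  set L := lMod p (T : Subgroup X) with hL
  set C := Subgroup.centralizer (vMod p (T : Subgroup X) : Set X) with hC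
  set L₁ := (L ⊓ E i₀) ⊔ B with hL₁
  have hBT : B ≤ (T : Subgroup X) := CfsgLib.BaumannBlock.baumannSubgroupOf_le _
  have hJB : thompsonSubgroupOf p (T : Subgroup X) ≤ B := CfsgLib.BaumannBlock.thompsonSubgroupOf_le_baumann _
  have hL₁M : ¬ L₁ ≤ M := by
    intro hle
    have hEi : E i₀ ≤ M := by
      intro e he
      obtain ⟨k, hk, hke⟩ := h.covers D (H := L) (hJB.trans (baumann_le_lMod _)) i₀ he
      obtain ⟨hkL, hkE⟩ := Subgroup.mem_inf.mp hk
      have h1 : e⁻¹ * k ∈ C := by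
        refine D.mem_centralizer_V (mul_mem (inv_mem (le_iSup E i₀ he)) (le_iSup E i₀ hkE)) fun l => ?_
        by_cases hl : l = i₀
        · exact hl ▸ hke.inv_mul_mem
        · exact mul_mem (inv_mem (D.cross l i₀ hl he)) (D.cross l i₀ hl hkE)
      have h2 := mul_mem (hle (Subgroup.mem_sup_left hk)) (inv_mem (h.centralizer_vMod_le h1))
      simpa using h2
    refine h.M_ne_top (top_le_iff.mp (D.top.ge.trans (sup_le (iSup_le fun j x hx => ?_) h.T_le)))
    obtain ⟨t, ht, hE, -⟩ := D.trans i₀ j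
    have h1 : t⁻¹ * x * t ∈ E i₀ := mem_conjOf.mp (hE.ge hx)
    have h2 := mul_mem (mul_mem (h.T_le ht) (hEi h1)) (inv_mem (h.T_le ht))
    simpa [mul_assoc] using h2
  obtain ⟨Y, ⟨hBY, hYL₁, hYM⟩, hmin⟩ := (Set.toFinite {Y : Subgroup X | B ≤ Y ∧ Y ≤ L₁ ∧ ¬ Y ≤ M}).exists_minimal
    ⟨L₁, le_sup_right, le_rfl, hL₁M⟩
  have hBU : B ≤ UU (T : Subgroup X) E := h.baumann_le_UU D
  have hYL : Y ≤ L := hYL₁.trans (sup_le inf_le_left (baumann_le_lMod _))
  have hYE : Y ≤ E i₀ ⊔ UU (T : Subgroup X) E :=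
    hYL₁.trans (sup_le (inf_le_right.trans le_sup_left) (hBU.trans le_sup_right))
  have hYS : Y ≤ ⨆ j, E j := hYL.trans (h.lMod_le_iSup D)
  -- the representation on the block
  obtain ⟨F, _, _, _, ⟨Cd⟩⟩ := exists_coord (T : Subgroup X) (D.nat i₀)
  have hρ : ∀ e e' : ↥(E i₀), SameOn (N i₀) (e : X) e' → Cd.ρ e = Cd.ρ e' := by
    intro e e' hee
    refine Subtype.ext (Matrix.ext_of_mulVec_single fun k => ?_)
    obtain ⟨x, hx⟩ := Cd.crd.surjective (Pi.single k 1)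
    rw [← hx]
    have hmem : (e' : X) * x * (e' : X)⁻¹ ∈ N i₀ := (Subgroup.mem_normalizer_iff.mp (D.E_norm i₀ e'.2) _).mp x.2
    rw [← Cd.act_ρ e' x ⟨_, hmem⟩ rfl, ← Cd.act_ρ e x ⟨_, hmem⟩ (hee x x.2).symm]
  have hρ' : ∀ e e' : ↥(E i₀), Cd.ρ e = Cd.ρ e' → SameOn (N i₀) (e : X) e' := by
    intro e e' hee x hx
    have hm : ∀ a : ↥(E i₀), (a : X) * x * (a : X)⁻¹ ∈ N i₀ := fun a =>
      (Subgroup.mem_normalizer_iff.mp (D.E_norm i₀ a.2) _).mp hx
    have h1 := Cd.act_ρ e ⟨x, hx⟩ ⟨_, hm e⟩ rfl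
    rw [hee, ← Cd.act_ρ e' ⟨x, hx⟩ ⟨_, hm e'⟩ rfl] at h1
    exact congrArg Subtype.val (Cd.crd.injective h1)
  have hex : ∀ g : ↥(⨆ j, E j), ∃ e : ↥(E i₀), SameOn (N i₀) (g : X) e := fun g => by
    obtain ⟨e, he, hge⟩ := D.exists_sameOn i₀ g.2
    exact ⟨⟨e, he⟩, hge⟩
  choose sec hsec using hex
  have hΦ : ∀ (g : ↥(⨆ j, E j)) (e : ↥(E i₀)), SameOn (N i₀) (g : X) e → Cd.ρ (sec g) = Cd.ρ e :=
    fun g e hge => hρ _ _ fun x hx => (hsec g x hx).symm.trans (hge x hx)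
  let Φ : ↥(⨆ j, E j) →* SL(2, F) := MonoidHom.mk' (fun g => Cd.ρ (sec g)) fun g g' => by
    show Cd.ρ (sec (g * g')) = Cd.ρ (sec g) * Cd.ρ (sec g')
    rw [← map_mul]
    refine hΦ (g * g') (sec g * sec g') fun x hx => ?_
    have h1 : (sec g' : X) * x * (sec g' : X)⁻¹ ∈ N i₀ :=
      (Subgroup.mem_normalizer_iff.mp (D.E_norm i₀ (sec g').2) x).mp hx
    calc (g : X) * g' * x * ((g : X) * g')⁻¹ = (g : X) * ((g' : X) * x * (g' : X)⁻¹) * (g : X)⁻¹ := by group
      _ = (g : X) * ((sec g' : X) * x * (sec g' : X)⁻¹) * (g : X)⁻¹ := by rw [hsec g' x hx]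
      _ = (sec g : X) * ((sec g' : X) * x * (sec g' : X)⁻¹) * (sec g : X)⁻¹ := hsec g _ h1
      _ = (sec g : X) * sec g' * x * ((sec g : X) * sec g')⁻¹ := by group
  let π : ↥(⨆ j, E j) →* Matrix.ProjectiveSpecialLinearGroup (Fin 2) F :=
    (QuotientGroup.mk' (Subgroup.center SL(2, F))).comp Φ
  have hπe : ∀ (g : ↥(⨆ j, E j)) (e : ↥(E i₀)), SameOn (N i₀) (g : X) e →
      π g = QuotientGroup.mk' (Subgroup.center SL(2, F)) (Cd.ρ e) := fun g e hge =>
    congrArg (QuotientGroup.mk' (Subgroup.center SL(2, F))) (hΦ g e hge)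
  set P := (((T : Subgroup X) ⊓ E i₀).subgroupOf (E i₀)).map
    ((QuotientGroup.mk' (Subgroup.center SL(2, F))).comp Cd.ρ) with hP
  have hπT : ∀ g : ↥(⨆ j, E j), (g : X) ∈ (T : Subgroup X) → π g ∈ P := by
    intro g hgT
    obtain ⟨e, he, hge⟩ := D.exists_sameOn i₀ g.2
    obtain ⟨u, hu, hgu⟩ := (D.hyp i₀).inner_of_sameOn hgT (D.iSup_E_le_normalizer i₀ g.2) he hge
    exact ⟨⟨u, (Subgroup.mem_inf.mp hu).2⟩, hu, (hπe g _ hgu).symm⟩
  have hPB : ∀ q ∈ P, ∃ y : ↥(⨆ j, E j), (y : X) ∈ B ∧ π y = q := by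
    rintro q ⟨u, hu, rfl⟩
    obtain ⟨j, hj, hjE, hju⟩ := h.exists_thompson_sameOn D (i := i₀) (u := (u : X)) hu
    exact ⟨⟨j, le_iSup E i₀ hjE⟩, hJB hj, hπe _ u hju⟩
  have hπM : ∀ g : ↥(⨆ j, E j), (g : X) ∈ E i₀ ⊔ UU (T : Subgroup X) E →
      (∀ q ∈ P, π g * q * (π g)⁻¹ ∈ P) → (g : X) ∈ M := by
    intro g hg hnorm
    refine h.mem_M_of_normalizes D hg fun x hx => ?_
    obtain ⟨hxT, hxE⟩ := Subgroup.mem_inf.mp hx
    set x' : ↥(⨆ j, E j) := ⟨x, le_iSup E i₀ hxE⟩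
    have h1 : π (g * x' * g⁻¹) ∈ P := by
      rw [map_mul, map_mul, map_inv]
      exact hnorm _ (hπT x' hxT)
    obtain ⟨u, hu, hue⟩ := h1
    refine ⟨u, hu, ?_⟩
    obtain ⟨k, hk⟩ := T.2 ⟨x, hxT⟩
    obtain ⟨l, hl⟩ := T.2 ⟨u, (Subgroup.mem_inf.mp hu).1⟩
    have hxk : x' ^ p ^ k = 1 := Subtype.ext (by simpa [x'] using congrArg Subtype.val hk)
    have hul : u ^ p ^ l = 1 := Subtype.ext (by simpa using congrArg Subtype.val hl)
    have heq : Cd.ρ (sec (g * x' * g⁻¹)) = Cd.ρ u := eq_of_mk_eq h.ne_two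
      (show Φ (g * x' * g⁻¹) ^ p ^ k = 1 by rw [← map_pow, conj_pow, hxk, mul_one, mul_inv_cancel, map_one])
      (by rw [← map_pow, hul, map_one]) hue.symm
    exact fun z hz => (hsec (g * x' * g⁻¹) z hz).trans (hρ' _ _ heq z hz)
  -- the Sylow subgroup of the quotient
  have hPp : IsPGroup p P := ((T.2.to_le inf_le_left).comap_subtype).map _
  have hPi : ¬ p ∣ P.index := fun hd => D.sylow i₀ (hd.trans (Subgroup.index_map_dvd _
    ((QuotientGroup.mk'_surjective _).comp Cd.ρ_surj)))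
  obtain ⟨n, -, hn⟩ := FiniteField.card F p
  -- the map on `Y`
  let πY : ↥Y →* Matrix.ProjectiveSpecialLinearGroup (Fin 2) F := π.comp (Subgroup.inclusion hYS)
  have hPY : P ≤ πY.range := by
    intro q hq
    obtain ⟨y, hy, rfl⟩ := hPB q hq
    exact ⟨⟨y, hBY hy⟩, congrArg π (Subtype.ext rfl)⟩
  have hsurj : Function.Surjective πY := by
    obtain ⟨g, hgY, hgM⟩ := SetLike.not_le_iff_exists.mp hYM
    have hnot : πY ⟨g, hgY⟩ ∉ Subgroup.normalizer (P : Set _) := fun hn =>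
      hgM (hπM ⟨g, hYS hgY⟩ (hYE hgY) fun q hq => (Subgroup.mem_normalizer_iff.mp hn q).mp hq)
    have htop := CfsgLib.PushingUp44.sylow_sup_eq_top (F := F) n.pos hn (hPp.toSylow hPi) (πY ⟨g, hgY⟩) hnot
    rw [IsPGroup.toSylow_coe] at htop
    refine MonoidHom.range_eq_top.mp (top_le_iff.mp (htop.ge.trans (sup_le hPY ?_)))
    rintro _ ⟨q, hq, rfl⟩
    exact mul_mem (mul_mem ⟨_, rfl⟩ (hPY hq)) (inv_mem ⟨_, rfl⟩)
  -- `B` is a Sylow subgroup of `Y`
  have hBrel : ¬ p ∣ B.relIndex Y := by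
    intro hd
    refine CfsgLib.Alperin.not_dvd_relIndex_inf T (N := ⊤) (W := L)
      (by rw [inf_top_eq, Subgroup.relIndex_top_right]; exact T.not_dvd_index) le_top
      (by rw [Subgroup.normalizer_eq_top]) ?_
    rw [h.inf_lMod D]
    exact hd.trans ⟨_, (Subgroup.relIndex_mul_relIndex _ _ _ hBY hYL).symm⟩
  have hBp : IsPGroup p (B.subgroupOf Y) := (T.2.to_le hBT).comap_subtype
  let S : Sylow p ↥Y := hBp.toSylow hBrel
  have hS : (S : Subgroup ↥Y) = B.subgroupOf Y := IsPGroup.toSylow_coe _ _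
  have hrelQ : ¬ p ∣ (B ⊔ pCore p X).relIndex (Y ⊔ pCore p X) := by
    set R := B ⊔ pCore p X with hR
    set f := QuotientGroup.mk' (pCore p X)
    have hRf : (R.map f).comap f = R := by
      rw [Subgroup.comap_map_eq, QuotientGroup.ker_mk', sup_eq_left.mpr le_sup_right]
    have hYf : (Y ⊔ pCore p X).map f = Y.map f := by
      rw [Subgroup.map_sup, (Subgroup.map_eq_bot_iff _).mpr (QuotientGroup.ker_mk' _).ge, sup_bot_eq]
    have hrel : R.relIndex (Y ⊔ pCore p X) = R.relIndex Y := by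
      rw [← hRf, Subgroup.relIndex_comap, Subgroup.relIndex_comap, hYf]
    rw [hrel]
    exact fun hd => hBrel (hd.trans (Subgroup.relIndex_dvd_of_le_left _ le_sup_left))
  refine ⟨Y, hBY, hYL, hYM, hrelQ, ?_, ?_⟩
  · intro g hg hgM
    by_contra hcon
    push Not at hcon
    set R := B ⊔ pCore p X with hR
    have hRT : R ≤ (T : Subgroup X) := sup_le hBT h.pCore_le_T
    have hRY : R ≤ Y ⊔ pCore p X := sup_le_sup_right hBY _
    set H := M ⊓ (Y ⊔ pCore p X) with hH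
    have hRH : R ≤ H := le_inf (hRT.trans h.T_le) hRY
    have hsyl : SylowIn p R H := by
      refine ⟨hRH, T.2.to_le hRT, fun hd => hrelQ ?_⟩
      exact hd.trans (Dvd.intro _ (Subgroup.relIndex_mul_relIndex _ _ _ hRH inf_le_right))
    have hle : conjOf g⁻¹ B ≤ H := conjOf_le_iff.mpr fun y hy => by
      rw [inv_inv]
      exact Subgroup.mem_inf.mpr ⟨hcon y hy, mul_mem (mul_mem (inv_mem hg) (Subgroup.mem_sup_left (hBY hy))) hg⟩
    obtain ⟨c, hc, hcR⟩ := exists_conj_le_of_sylowIn hsyl hle ((T.2.to_le hBT).map _)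
    rw [conjOf_conjOf] at hcR
    obtain ⟨hcM, hcY⟩ := Subgroup.mem_inf.mp hc
    have hQE : pCore p X ≤ E i₀ := h.pCore_le_E D i₀
    have hk : c * g⁻¹ ∈ E i₀ ⊔ UU (T : Subgroup X) E :=
      (sup_le hYE (hQE.trans le_sup_left)) (mul_mem hcY (inv_mem hg))
    have hkS : c * g⁻¹ ∈ ⨆ j, E j :=
      (sup_le (le_iSup E i₀) (iSup_le fun j => inf_le_right.trans (le_iSup E j))) hk
    have hkM : c * g⁻¹ ∈ M := by
      refine hπM ⟨_, hkS⟩ hk fun q hq => ?_
      obtain ⟨y, hy, rfl⟩ := hPB q hq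
      rw [← map_inv, ← map_mul, ← map_mul]
      exact hπT _ (hRT (conjOf_le_iff.mp hcR _ hy))
    refine hgM ?_
    have h1 := mul_mem (inv_mem hcM) hkM
    rw [inv_mul_cancel_left] at h1
    simpa using inv_mem h1
  -- pushing up
  set Q₀ := pCore p X ⊓ Subgroup.centralizer (wMod p (T : Subgroup X) : Set X) with hQ₀
  have hQ₀B : Q₀ ≤ B := (h.baumann_inf_pCore D).ge.trans inf_le_left
  haveI : Q₀.Normal := inferInstance
  have hQ₀p : Q₀.subgroupOf Y ≤ pCore p ↥Y := CfsgLib.Constrained.le_pCore inferInstance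
    ((CfsgLib.ConjFunctor.isPGroup_pCore (G := X) p).to_le inf_le_left).comap_subtype
  have hE₁ : Subgroup.centralizer (pCore p ↥Y : Set ↥Y) ≤ pCore p ↥Y := by
    intro y hy
    refine hQ₀p ((h.centralizer_lMod_le D) ⟨hYL y.2, Subgroup.mem_centralizer_iff.mpr fun q hq => ?_⟩)
    exact congrArg Subtype.val (Subgroup.mem_centralizer_iff.mp hy (⟨q, hBY (hQ₀B hq)⟩ : ↥Y) (hQ₀p hq))
  have hE₂ : ∃! M' : Subgroup ↥Y, IsCoatom M' ∧ (S : Subgroup ↥Y) ≤ M' := by
    have hne : M.subgroupOf Y ≠ ⊤ := fun e => hYM (Subgroup.subgroupOf_eq_top.mp e)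
    have key : ∀ H : Subgroup ↥Y, (S : Subgroup ↥Y) ≤ H → H ≠ ⊤ → H ≤ M.subgroupOf Y := by
      intro H hSH hH z hz
      by_contra hzM
      refine hH (eq_top_iff.mpr fun w _ => ?_)
      have hmem : H.map Y.subtype ∈ {Y' : Subgroup X | B ≤ Y' ∧ Y' ≤ L₁ ∧ ¬ Y' ≤ M} :=
        ⟨fun b hb => ⟨⟨b, hBY hb⟩, hSH (hS.ge hb), rfl⟩, (Subgroup.map_subtype_le _).trans hYL₁,
          fun hle => hzM (hle ⟨z, hz, rfl⟩)⟩
      exact (Subgroup.mem_map_iff_mem Y.subtype_injective).mp (hmin hmem (Subgroup.map_subtype_le _) w.2)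
    have hSM : (S : Subgroup ↥Y) ≤ M.subgroupOf Y := hS.le.trans (Subgroup.comap_mono (hBT.trans h.T_le))
    refine ⟨M.subgroupOf Y, ⟨⟨hne, fun H hH => ?_⟩, hSM⟩, fun M' hM' => ?_⟩
    · by_contra hH'
      exact hH.not_ge (key H (hSM.trans hH.le) hH')
    · rcases (hM'.1.le_iff.mp (key M' hM'.2 hM'.1.1)) with e | e
      · exact absurd e hne
      · exact e.symm
  have hE₃ : Nonempty (↥Y ⧸ πY.ker ≃* Matrix.ProjectiveSpecialLinearGroup (Fin 2) F) :=
    ⟨QuotientGroup.quotientKerEquivOfSurjective πY hsurj⟩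
  have hd : ∀ K : Subgroup ↥(S : Subgroup ↥Y), K ≠ ⊥ → K.Characteristic →
      ¬ (K.map (S : Subgroup ↥Y).subtype).Normal := by
    intro K hK hKc hn
    set K' := (K.map (S : Subgroup ↥Y).subtype).map Y.subtype with hK'
    have hK'B : CharIn K' B := by
      refine ⟨?_, fun σ x hx => ?_⟩
      · rintro _ ⟨_, ⟨s, -, rfl⟩, rfl⟩
        exact hS.le s.2
      · let e : ↥(S : Subgroup ↥Y) ≃* ↥B := (MulEquiv.subgroupCongr hS).trans (Subgroup.subgroupOfEquivOfLe hBY)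
        obtain ⟨_, ⟨s, hs, rfl⟩, hsx⟩ := hx
        have hσ : ((e.trans σ).trans e.symm) s ∈ K := (Subgroup.characteristic_iff_map_le.mp hKc _) ⟨s, hs, rfl⟩
        have hes : e s = x := Subtype.ext hsx
        refine ⟨_, ⟨_, hσ, rfl⟩, ?_⟩
        have : e (((e.trans σ).trans e.symm) s) = σ x := by simp [hes]
        exact congrArg Subtype.val this
    have hnor : Y ⊔ (T : Subgroup X) ≤ Subgroup.normalizer (K' : Set X) := by
      refine sup_le ?_ ((Subgroup.le_normalizer.trans (charIn_baumann (p := p) _).normalizer_le).trans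
        hK'B.normalizer_le)
      have h1 := Subgroup.le_normalizer_map (H := K.map (S : Subgroup ↥Y).subtype) Y.subtype
      rw [Subgroup.normalizer_eq_top_iff.mpr hn, ← MonoidHom.range_eq_map, Subgroup.range_subtype] at h1
      exact h1
    have htop : Y ⊔ (T : Subgroup X) = ⊤ := by
      by_contra hne
      exact hYM (le_sup_left.trans (h.uniq _ le_sup_right hne))
    refine h.nochar K' (hK'B.trans (charIn_baumann _)) ?_
      (Subgroup.normalizer_eq_top_iff.mp (top_le_iff.mp (htop.ge.trans hnor)))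
    rw [hK', Ne, Subgroup.map_eq_bot_iff_of_injective _ Y.subtype_injective,
      Subgroup.map_eq_bot_iff_of_injective _ (S : Subgroup ↥Y).subtype_injective]
    exact hK
  obtain ⟨-, hfac⟩ := Cfsg.Agent.S2764.result S hE₁ hE₂ πY.ker F n n.pos hn hE₃ hd
  intro U W hUW hUp y hy u hu a b
  haveI := hUW.2.2.1
  by_cases hc : ⁅U, (⊤ : Subgroup ↥Y)⁆ ≤ W
  · exact (Subgroup.commutator_le_left W ⊤) (Subgroup.commutator_mem_commutator
      (hc (Subgroup.commutator_mem_commutator hu trivial)) trivial)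
  · obtain ⟨k, hk⟩ := T.2 ⟨y, hy⟩
    have hyk : y ^ p ^ k = 1 := Subtype.ext (by simpa using congrArg Subtype.val hk)
    have h1 := natural_quadratic (p := p) (hfac U W hUp hUW hc) (y := QuotientGroup.mk' W y) (k := k)
      (by rw [← map_pow, hyk, map_one]) (Subgroup.mem_map_of_mem (QuotientGroup.mk' W) hu) a b
    rwa [← map_pow, ← map_pow, ← map_commutatorElement, ← map_commutatorElement, QuotientGroup.mk'_apply,
      QuotientGroup.eq_one_iff] at h1

end Core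

end CfsgLib.TwoSubgroup16
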