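import Cfsg.Agent.TwoSubgroup16.Block
import Cfsg.Agent.ConjFunctor.Engel
import Cfsg.Agent.ConjFunctor.SectionTransfer
import Cfsg.Agent.Transfer.Control

/-!
`B(T)` acts quadratically on the chief factors of `Y·O_p(X)` below `O_p(X)`: homomorphisms on `O_p(X)` invariant
under `M` are invariant under `X`.
-/

set_option autoImplicit false

open Cfsg
open CfsgLib.ConjFunctor (EngelOn iterCommutator_le_of_le hom_invariant_of_engel)
open scoped commutatorElement

namespace CfsgLib.TwoSubgroup16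

universe u

/-- A `p`-group centralizes each chief factor below it. -/
theorem commutator_le_of_chief {G : Type*} [Group G] [Finite G] {p : ℕ} [Fact p.Prime] {Q U V : Subgroup G}
    [Q.Normal] (hQ : IsPGroup p Q) (hc : IsChiefFactor U V) (hUQ : U ≤ Q) : ⁅U, Q⁆ ≤ V := by
  haveI := hc.2.1
  haveI := hc.2.2.1
  rcases hc.2.2.2 (⁅U, Q⁆ ⊔ V) inferInstance le_sup_right
    (sup_le (Subgroup.commutator_le_left U Q) hc.1.le) with e | e
  · exact le_sup_left.trans e.le
  exfalso
  set f := QuotientGroup.mk' V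
  haveI hUn : (U.map f).Normal := hc.2.1.map _ (QuotientGroup.mk'_surjective V)
  haveI hQn : (Q.map f).Normal := Subgroup.Normal.map inferInstance _ (QuotientGroup.mk'_surjective V)
  haveI : Group.IsNilpotent ↥(Q.map f) := (hQ.map f).isNilpotent
  haveI : ((U.map f).subgroupOf (Q.map f)).Normal := Subgroup.Normal.subgroupOf inferInstance _
  have hne : (U.map f).subgroupOf (Q.map f) ≠ ⊥ := by
    intro h
    rw [Subgroup.subgroupOf_eq_bot, disjoint_iff, inf_eq_left.2 (Subgroup.map_mono hUQ),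
      Subgroup.map_eq_bot_iff, QuotientGroup.ker_mk'] at h
    exact hc.1.not_ge h
  have h1 := (Subgroup.map_lt_map_iff_of_injective (Q.map f).subtype_injective).2
    (CfsgLib.Transfer.commutator_top_lt_of_ne_bot hne)
  rw [Subgroup.map_commutator, ← MonoidHom.range_eq_map, Subgroup.range_subtype,
    Subgroup.map_subgroupOf_eq_of_le (Subgroup.map_mono hUQ)] at h1
  have h2 : U.map f = ⁅U.map f, Q.map f⁆ := by
    conv_lhs => rw [← e]
    rw [Subgroup.map_sup, Subgroup.map_commutator, (Subgroup.map_eq_bot_iff V).mpr (QuotientGroup.ker_mk' V).ge,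
      sup_bot_eq]
  exact h1.ne h2.symm

variable {X : Type u} [Group X] [Finite X] {p : ℕ} [Fact p.Prime] {T : Sylow p X} {M : Subgroup X}

namespace Core

variable (h : Core p T M)

include h

theorem invariant_all {A : Type*} [CommGroup A] (φ : ↥(pCore p X) →* A)
    (hφ : ∀ m ∈ M, ∀ q : ↥(pCore p X),
      φ (haveI := CfsgLib.ConjFunctor.pCore_normal (G := X) p; MulAut.conjNormal m q) = φ q) :
    ∀ (x : X) (q : ↥(pCore p X)),
      φ (haveI := CfsgLib.ConjFunctor.pCore_normal (G := X) p; MulAut.conjNormal x q) = φ q := by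
  haveI hQn := CfsgLib.ConjFunctor.pCore_normal (G := X) p
  obtain ⟨r, E, N, D⟩ := h.exists_blocks
  obtain ⟨Y, hBY, hYL, hYM, hrel, hmove, hquad⟩ := h.exists_pushing D
  set B := baumannSubgroupOf p (T : Subgroup X) with hB
  have hQp : IsPGroup p (pCore p X) := CfsgLib.ConjFunctor.isPGroup_pCore (G := X) p
  set Q₀ := (pCore p X) ⊓ Subgroup.centralizer (wMod p (T : Subgroup X) : Set X) with hQ₀
  haveI : Q₀.Normal := inferInstance
  have hBT : B ≤ (T : Subgroup X) := CfsgLib.BaumannBlock.baumannSubgroupOf_le _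
  have hQ₀Y : Q₀ ≤ Y := ((h.baumann_inf_pCore D).ge.trans inf_le_left).trans hBY
  set G := Y ⊔ (pCore p X) with hG
  set Q' := (pCore p X).subgroupOf G with hQ'
  haveI hQ'n : Q'.Normal := hQn.subgroupOf G
  have hQ'p : IsPGroup p Q' := hQp.comap_subtype
  have hRp : IsPGroup p ↥((B ⊔ (pCore p X)).subgroupOf G) :=
    (T.2.to_le (sup_le hBT h.pCore_le_T)).comap_subtype
  have hRL : (B ⊔ (pCore p X)).subgroupOf G ≤ M.subgroupOf G :=
    Subgroup.comap_mono (sup_le (hBT.trans h.T_le) (h.pCore_le_T.trans h.T_le))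
  have hidx : ¬ p ∣ (M.subgroupOf G).index := fun hd => hrel (hd.trans (Subgroup.index_dvd_of_le hRL))
  let ι : ↥Y →* ↥G := Subgroup.inclusion le_sup_left
  have hp3 : 3 ≤ p := lt_of_le_of_ne (Fact.out : p.Prime).two_le (Ne.symm h.ne_two)
  have hEng : EngelOn p Q' {y : ↥G | (y : X) ∈ B} := by
    intro y hy U V hUV hUQ
    haveI hUn := hUV.2.1
    haveI hVn := hUV.2.2.1
    refine iterCommutator_le_of_le hUV.2.2.1 (m := 2) (by omega) ?_
    show ⁅⁅U, Subgroup.zpowers y⁆, Subgroup.zpowers y⁆ ≤ V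
    set Q₀' := Q₀.subgroupOf G with hQ₀'
    haveI hQ₀'n : Q₀'.Normal := Subgroup.Normal.subgroupOf inferInstance G
    by_cases hcase : U ⊓ Q₀' ≤ V
    · refine (Subgroup.commutator_mono (Subgroup.commutator_le.mpr fun u hu z hz => hcase ⟨?_, ?_⟩) le_rfl).trans
        (Subgroup.commutator_le_left V _)
      · exact (Subgroup.commutator_le_left U ⊤) (Subgroup.commutator_mem_commutator hu trivial)
      · have hzL : (z : X) ∈ lMod p (T : Subgroup X) := by
          obtain ⟨k, rfl⟩ := hz
          show (((y : ↥G) ^ k : ↥G) : X) ∈ _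
          rw [Subgroup.coe_zpow]
          exact zpow_mem (baumann_le_lMod _ hy) k
        have h1 := inv_mem (mem_trivMod.mp (h.lMod_le_trivMod_pCore D hzL) _ (hUQ hu))
        show ((⁅u, z⁆ : ↥G) : X) ∈ Q₀
        change ⁅(u : X), (z : X)⁆ ∈ Q₀
        rw [show ⁅(u : X), (z : X)⁆ = ((z : X) * u * (z : X)⁻¹ * (u : X)⁻¹)⁻¹ by
          rw [commutatorElement_def]; group]
        exact h1
    -- the factor lies in `Q₀`
    have hsup : (U ⊓ Q₀') ⊔ V = U := by
      rcases hUV.2.2.2 ((U ⊓ Q₀') ⊔ V) inferInstance le_sup_right (sup_le inf_le_left hUV.1.le) with e | e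
      · exact absurd (le_sup_left.trans e.le) hcase
      · exact e
    set U₁ := (U ⊓ Q₀').comap ι with hU₁
    set W₁ := (V ⊓ Q₀').comap ι with hW₁
    have hι : ∀ q : ↥G, q ∈ Q₀' → ∃ y₀ : ↥Y, ι y₀ = q := fun q hq => ⟨⟨q, hQ₀Y hq⟩, Subtype.ext rfl⟩
    have hU₁p : U₁ ≤ pCore p ↥Y := by
      refine le_trans (fun z hz => ?_) (CfsgLib.Constrained.le_pCore (N := Q₀.subgroupOf Y) inferInstance
        (hQp.to_le inf_le_left).comap_subtype)
      exact (Subgroup.mem_inf.mp hz).2
    have hchief : IsChiefFactor U₁ W₁ := by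
      refine ⟨lt_of_le_not_ge (Subgroup.comap_mono (inf_le_inf_right _ hUV.1.le)) fun hle => hcase fun q hq => ?_,
        Subgroup.Normal.comap inferInstance _, Subgroup.Normal.comap inferInstance _, fun K hK h1 h2 => ?_⟩
      · obtain ⟨y₀, rfl⟩ := hι q (Subgroup.mem_inf.mp hq).2
        exact (Subgroup.mem_inf.mp (show ι y₀ ∈ V ⊓ Q₀' from hle hq)).1
      haveI := hK
      have hKU : K.map ι ≤ U ⊓ Q₀' := Subgroup.map_le_iff_le_comap.mpr h2
      have hnorm : (K.map ι ⊔ V).Normal := by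
        refine Subgroup.normalizer_eq_top_iff.mp (top_le_iff.mp ?_)
        have htop : (⊤ : Subgroup ↥G) = ι.range ⊔ Q' := by
          rw [show ι.range = Y.subgroupOf G from Subgroup.inclusion_range _, ← Subgroup.subgroupOf_sup le_sup_left le_sup_right,
            Subgroup.subgroupOf_self]
        rw [htop]
        refine sup_le ?_ fun q hq => ?_
        · refine le_trans (le_inf ?_ ?_) (Subgroup.normalizer_inf_normalizer_le_normalizer_sup _ _)
          · have h3 := Subgroup.le_normalizer_map (H := K) ι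
            rwa [Subgroup.normalizer_eq_top, ← MonoidHom.range_eq_map] at h3
          · rw [Subgroup.normalizer_eq_top]; exact le_top
        · refine CfsgLib.ConjFunctor.mem_normalizer_iff_conjOf.mpr (Subgroup.eq_of_le_of_card_ge
            (CfsgLib.ConjFunctor.conjOf_le_iff.mpr fun w hw => ?_) (CfsgLib.ConjFunctor.card_conjOf _ _).ge)
          have hwU : w ∈ U := (sup_le (hKU.trans inf_le_left) hUV.1.le) hw
          have h3 := commutator_le_of_chief hQ'p hUV hUQ (Subgroup.commutator_mem_commutator hwU hq)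
          have h4 := mul_mem (Subgroup.mem_sup_right (S := K.map ι) (inv_mem h3)) hw
          simpa [commutatorElement_def, mul_assoc] using h4
      rcases hUV.2.2.2 _ hnorm le_sup_right (sup_le (hKU.trans inf_le_left) hUV.1.le) with e | e
      · left
        refine le_antisymm (fun z hz => Subgroup.mem_inf.mpr ⟨e.le (Subgroup.mem_sup_left (Subgroup.mem_map_of_mem ι hz)), ?_⟩) h1
        exact (Subgroup.mem_inf.mp (hKU (Subgroup.mem_map_of_mem ι hz))).2
      · right
        refine le_antisymm h2 fun z hz => ?_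
        obtain ⟨hzU, hzQ⟩ := Subgroup.mem_inf.mp hz
        rw [← e, ← SetLike.mem_coe, Subgroup.mul_normal] at hzU
        obtain ⟨_, ⟨k, hk, rfl⟩, w, hw, hkw⟩ := hzU
        have h5 : k⁻¹ * z ∈ K := h1 (Subgroup.mem_inf.mpr ⟨?_, ?_⟩)
        · simpa using mul_mem hk h5
        · change ι (k⁻¹ * z) ∈ V
          rw [map_mul, map_inv, ← hkw, inv_mul_cancel_left]
          exact hw
        · change ι (k⁻¹ * z) ∈ Q₀'
          rw [map_mul, map_inv]
          exact mul_mem (inv_mem (Subgroup.mem_inf.mp (hKU (Subgroup.mem_map_of_mem ι hk))).2) hzQ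
    set y₁ : ↥Y := ⟨(y : X), hBY hy⟩
    have hy₁ : ι y₁ = y := Subtype.ext rfl
    refine Subgroup.commutator_le.mpr fun w hw z' hz' => ?_
    obtain ⟨b, rfl⟩ := mem_powers_iff_mem_zpowers.mpr hz'
    suffices key : ⁅U, Subgroup.zpowers y⁆ ≤ trivMod (Subgroup.zpowers y) V by
      have h6 := mem_trivMod.mp (key hw) _ (Subgroup.npow_mem_zpowers y b)
      simpa [commutatorElement_def] using h6
    refine Subgroup.commutator_le.mpr fun u hu z hz => mem_trivMod.mpr fun z'' hz'' => ?_
    obtain ⟨a, rfl⟩ := mem_powers_iff_mem_zpowers.mpr hz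
    obtain ⟨c, rfl⟩ := mem_powers_iff_mem_zpowers.mpr hz''
    rw [← hsup, ← SetLike.mem_coe, Subgroup.mul_normal] at hu
    obtain ⟨u₀, hu₀, v, hv, rfl⟩ := hu
    obtain ⟨u₁, rfl⟩ := hι u₀ (Subgroup.mem_inf.mp hu₀).2
    have h7 : ⁅⁅ι u₁, y ^ a⁆, y ^ c⁆ ∈ V := by
      rw [← hy₁, ← map_pow, ← map_pow, ← map_commutatorElement, ← map_commutatorElement]
      exact (Subgroup.mem_inf.mp (show ι _ ∈ V ⊓ Q₀' from
        hquad U₁ W₁ hchief hU₁p y₁ (hBT hy) u₁ hu₀ a c)).1
    rw [← commutatorElement_def, ← QuotientGroup.eq_one_iff, ← QuotientGroup.mk'_apply, map_commutatorElement,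
      map_commutatorElement, map_mul, (QuotientGroup.eq_one_iff v).mpr hv |> (fun e => (e : QuotientGroup.mk' V v = 1)),
      mul_one, ← map_commutatorElement, ← map_commutatorElement, QuotientGroup.mk'_apply, QuotientGroup.eq_one_iff]
    exact h7
  let κ : ↥Q' →* ↥(pCore p X) :=
    { toFun := fun q => ⟨((q : ↥G) : X), q.2⟩, map_one' := rfl, map_mul' := fun _ _ => rfl }
  have hinv := hom_invariant_of_engel (p := p) hQ'n hQ'p hRp hRL hidx (Y := {y : ↥G | (y : X) ∈ B})
    (fun y hy => Subgroup.mem_sup_left (show (y : X) ∈ B from hy)) (fun g hg => by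
      obtain ⟨y, hy, hny⟩ := hmove g g.2 hg
      exact ⟨⟨y, Subgroup.mem_sup_left (hBY hy)⟩, hy, fun hm => hny (by simpa [Subgroup.mem_subgroupOf] using hm)⟩)
    hEng (A := A) (φ.comp κ) (fun l hl q => by
      refine Eq.trans ?_ (hφ _ hl (κ q))
      exact congrArg φ (Subtype.ext (by simp [κ])))
  let S : Subgroup X :=
    { carrier := {x | ∀ q : ↥(pCore p X), φ (MulAut.conjNormal x q) = φ q}
      mul_mem' := fun {a b} ha hb q => by rw [map_mul, MulAut.mul_apply, ha, hb]
      one_mem' := fun q => by simp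
      inv_mem' := fun {a} ha q => by
        have := ha (MulAut.conjNormal a⁻¹ q)
        rw [← MulAut.mul_apply, ← map_mul, mul_inv_cancel, map_one, MulAut.one_apply] at this
        exact this.symm }
  have hYS : Y ≤ S := fun y hy q => by
    have hyG : y ∈ G := Subgroup.mem_sup_left hy
    have hqG : (q : X) ∈ G := Subgroup.mem_sup_right q.2
    refine Eq.trans ?_ ((hinv ⟨y, hyG⟩ ⟨⟨(q : X), hqG⟩, q.2⟩).trans (congrArg φ (Subtype.ext rfl)))
    exact congrArg φ (Subtype.ext (by simp [κ]))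
  have htop : (⊤ : Subgroup X) ≤ S := by
    refine le_trans (top_le_iff.mpr ?_) (sup_le hφ hYS : M ⊔ Y ≤ S)
    exact h.isCoatom_M.2 _ (lt_of_le_of_ne le_sup_left fun e => hYM (le_sup_right.trans e.ge))
  exact fun x q => htop (Subgroup.mem_top x) q

end Core

end CfsgLib.TwoSubgroup16
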